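import Cfsg.Agent.H111.JM.EnvF
import Cfsg.Agent.H111.JM.PcData

/-!
# The solutions in the pieces 4 to 5 (generated, helper111, S5580)
-/

set_option autoImplicit false
set_option maxRecDepth 100000

namespace Cfsg.Agent.H111.JM.PS

open Cfsg.Agent.H111.JM.Eng Cfsg.Agent.H111.JM.Pc Cfsg.Agent.H111.JM.Env Cfsg.Agent.H111.JM.EnvF

theorem s4 : pc4.chk 112 LC LC LT tst = true := by decide +kernel

theorem s5 : pc5.chk 112 LC LC LT tst = true := by decide +kernel

end Cfsg.Agent.H111.JM.PS
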